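/-
Certificates for orbits and for the maximality of point stabilisers (primitivity) of permutation groups.
-/
import Cfsg.Agent.H56.IsoK
import Cfsg.Agent.H14.Local

set_option autoImplicit false

namespace Cfsg.Agent.H56

open H14 MulAction

/-- the mask `m` grown by `f` rounds of images under `gs` -/
noncomputable def grow (k M n : ℕ) (gs : List ℕ) (f : ℕ) : ℕ → ℕ :=
  Nat.rec (fun m => m) (fun _ ih m => force (List.rec (motive := fun _ => ℕ → ℕ) (fun m => m)
    (fun P _ ih m => force (Nat.lor m (img k M n P m)) ih) gs m) ih) f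

/-- the union of the masks grown from the points `l` -/
noncomputable def growU (k M n : ℕ) (gs : List ℕ) (f : ℕ) (l : List ℕ) : ℕ :=
  List.rec 0 (fun x _ ih => Nat.lor (grow k M n gs f (Nat.pow 2 x)) ih) l

/-- `O` is closed under `gens` and contains `b`; `hs` fix `b`; the orbits of `hs` on the images of `b` under `rs`
cover `O` up to `b`; each member of `rs` generates with `hs` a group transitive on `O` -/
noncomputable def primOK (k M n : ℕ) (Ls : List Lev) (gens : List ℕ) (b O : ℕ) (hs rs : List ℕ)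
    (f : ℕ) : Bool :=
  Nat.ble (Nat.succ b) n && tb O b && allL gens (fun P => Nat.beq (img k M n P O) O) &&
    memOK k M n Ls hs && memOK k M n Ls rs && allL hs (fun P => Nat.beq (app k M P b) b) &&
    anyL rs (fun P => !Nat.beq (app k M P b) b) &&
    Nat.beq (Nat.lor (Nat.pow 2 b) (growU k M n hs f (rs.map fun P => app k M P b))) O &&
    allL rs fun P => Nat.beq (grow k M n (P :: hs) f (Nat.pow 2 b)) O

variable {α : Type*} {n k M : ℕ} {E : Enc α n k M}

theorem grow_spec {K : Subgroup (Equiv.Perm α)} {gs : List ℕ} (hg : ∀ P ∈ gs, E.InG K P) (b : α)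
    (f : ℕ) {m : ℕ} (hm : ∀ i, m.testBit i = true → ∃ g ∈ K, E.ix (g b) = i) :
    ∀ i, (grow k M n gs f m).testBit i = true → ∃ g ∈ K, E.ix (g b) = i := by
  induction f generalizing m with
  | zero => exact hm
  | succ f ih =>
    have e : grow k M n gs (f + 1) m = grow k M n gs f (List.rec (motive := fun _ => ℕ → ℕ)
      (fun m => m) (fun P _ ih m => force (Nat.lor m (img k M n P m)) ih) gs m) := force_eq _ _
    rw [e]
    refine ih ?_
    clear ih e
    induction gs generalizing m with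
    | nil => exact hm
    | cons P gs ih =>
      simp only [force_eq] at ih ⊢
      refine ih (fun Q hQ => hg Q (List.mem_cons_of_mem _ hQ)) fun i hi => ?_
      obtain ⟨g, hg', rfl⟩ := hg P List.mem_cons_self
      rcases Bool.or_eq_true_iff.1 ((Nat.testBit_or _ _ _).symm.trans hi) with h | h
      · exact hm i h
      · obtain ⟨j, -, h1, rfl⟩ := (testBit_img _ _ _ _ _ _).1 h
        obtain ⟨u, hu, rfl⟩ := hm j h1
        exact ⟨g * u, K.mul_mem hg' hu, (E.app_pk g _).symm⟩

theorem grow_pt {K : Subgroup (Equiv.Perm α)} {gs : List ℕ} (hg : ∀ P ∈ gs, E.InG K P) {b : ℕ}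
    (hb : b < n) (f : ℕ) {a : α} (h : (grow k M n gs f (Nat.pow 2 b)).testBit (E.ix a) = true) :
    ∃ g ∈ K, g (E.pt b) = a :=
  let ⟨g, hg, e⟩ := grow_spec hg (E.pt b) f (fun i hi => ⟨1, K.one_mem, by
    have : (2 ^ b).testBit i = true := hi
    rw [Nat.testBit_two_pow] at this
    exact (E.ix_pt b hb).trans (by simpa using this)⟩) _ h
  ⟨g, hg, E.ix_injective e⟩

theorem growU_pt {K : Subgroup (Equiv.Perm α)} {gs : List ℕ} (hg : ∀ P ∈ gs, E.InG K P)
    {l : List ℕ} (hl : ∀ b ∈ l, b < n) (f : ℕ) {a : α}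
    (h : (growU k M n gs f l).testBit (E.ix a) = true) : ∃ b ∈ l, ∃ g ∈ K, g (E.pt b) = a := by
  induction l with
  | nil => exact absurd (h.symm.trans (Nat.zero_testBit _)) (by decide)
  | cons b l ih =>
    rcases Bool.or_eq_true_iff.1 ((Nat.testBit_or _ _ _).symm.trans h) with h | h
    · exact ⟨b, List.mem_cons_self, grow_pt hg (hl b List.mem_cons_self) f h⟩
    · obtain ⟨c, hc, e⟩ := ih (fun c hc => hl c (List.mem_cons_of_mem _ hc)) h
      exact ⟨c, List.mem_cons_of_mem _ hc, e⟩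

theorem testBit_of_closed {gens : List ℕ} {O : ℕ}
    (h : allL gens (fun P => Nat.beq (img k M n P O) O) = true) {g : Equiv.Perm α}
    (hg : g ∈ E.grp gens) {a : α} (ha : O.testBit (E.ix a) = true) :
    O.testBit (E.ix (g a)) = true := by
  have := E.finite
  open scoped Pointwise in
  have h1 := Enc.grp_induction (H := stabilizer (Equiv.Perm α) {a | O.testBit (E.ix a) = true})
    (fun g hg => (mem_stabilizer_set_iff_smul_set_subset (Set.toFinite _)).2 (by
      rintro _ ⟨a, ha, rfl⟩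
      show O.testBit _ = true
      rw [← beq_iff.1 (allL_iff.1 h _ hg), testBit_img]
      exact ⟨_, E.ix_lt a, ha, E.app_pk g a⟩)) hg
  exact (mem_stabilizer_set.1 h1 a).2 ha

theorem isCoatom_of_primOK {K : Subgroup (Equiv.Perm α)} {Ls : List Lev} (hK : E.IsChain Ls K)
    {gens : List ℕ} (hle : K ≤ E.grp gens) {b O : ℕ} {hs rs : List ℕ} {f : ℕ}
    (h : primOK k M n Ls gens b O hs rs f = true) :
    IsCoatom ((stabilizer (Equiv.Perm α) (E.pt b)).subgroupOf K) := by
  simp only [primOK, Bool.and_eq_true, ble_iff, beq_iff, tb_eq] at h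
  obtain ⟨⟨⟨⟨⟨⟨⟨⟨hb, h1⟩, h2⟩, h3⟩, h4⟩, h5⟩, h6⟩, h7⟩, h8⟩ := h
  have hb' : b < n := hb
  have h3' := inG_of_memOK hK h3
  have h4' := inG_of_memOK hK h4
  have hO : ∀ g ∈ K, O.testBit (E.ix (g (E.pt b))) = true := fun g hg =>
    testBit_of_closed h2 (hle hg) (by rwa [E.ix_pt b hb'])
  refine ⟨fun ht => ?_, fun N hN => ?_⟩
  · obtain ⟨P, hP, e⟩ := anyL_iff.1 h6
    obtain ⟨g, hg, rfl⟩ := h4' P hP
    have : (⟨g, hg⟩ : K) ∈ (stabilizer (Equiv.Perm α) (E.pt b)).subgroupOf K := ht ▸ trivial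
    have h9 : g (E.pt b) = E.pt b := this
    rw [E.app_pk_of_lt g hb', h9, E.ix_pt b hb'] at e
    simp at e
  · obtain ⟨x, hx, hx'⟩ := SetLike.exists_of_lt hN
    have hH : ∀ P ∈ hs, E.InG (K ⊓ stabilizer (Equiv.Perm α) (E.pt b)) P := fun P hP =>
      (h3' P hP).stab hb' (beq_iff.1 (allL_iff.1 h5 P hP))
    have hle' : K ⊓ stabilizer (Equiv.Perm α) (E.pt b) ≤ N.map K.subtype := fun g hg =>
      ⟨⟨g, hg.1⟩, hN.le hg.2, rfl⟩
    have h9 := hO x x.2
    rw [← h7] at h9
    rcases Bool.or_eq_true_iff.1 ((Nat.testBit_or _ _ _).symm.trans h9) with h | h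
    · have : (2 ^ b).testBit _ = true := h
      rw [Nat.testBit_two_pow] at this
      exact absurd (E.ix_injective ((E.ix_pt b hb').trans (by simpa using this))).symm hx'
    · obtain ⟨c, hc, u, hu, e⟩ := growU_pt hH (fun c hc => by
        obtain ⟨P, hP, rfl⟩ := List.mem_map.1 hc
        obtain ⟨g, -, rfl⟩ := h4' P hP
        exact E.app_pk_lt g hb') f h
      obtain ⟨P, hP, rfl⟩ := List.mem_map.1 hc
      obtain ⟨g, hg, rfl⟩ := h4' P hP
      rw [← E.apply_pt g hb'] at e
      have hgN : g ∈ N.map K.subtype := by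
        have h10 : (x : Equiv.Perm α)⁻¹ * u * g ∈ N.map K.subtype := hle' ⟨K.mul_mem
          (K.mul_mem (K.inv_mem x.2) hu.1) hg, Equiv.Perm.inv_eq_iff_eq.2 e⟩
        have h11 : (x : Equiv.Perm α) ∈ N.map K.subtype := ⟨x, hx, rfl⟩
        rwa [Subgroup.mul_mem_cancel_left _ (Subgroup.mul_mem _ (Subgroup.inv_mem _ h11)
          (hle' hu))] at h10
      refine eq_top_iff.2 fun y _ => ?_
      have h10 := hO y y.2
      rw [← beq_iff.1 (allL_iff.1 h8 _ hP)] at h10
      obtain ⟨v, hv, e⟩ := grow_pt (K := N.map K.subtype) (List.forall_mem_cons.2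
        ⟨⟨g, hgN, rfl⟩, fun Q hQ => (hH Q hQ).mono hle'⟩) hb' f h10
      have h11 : v⁻¹ * y ∈ N.map K.subtype := hle' ⟨K.mul_mem (K.inv_mem
        (Subgroup.map_subtype_le N hv)) y.2, Equiv.Perm.inv_eq_iff_eq.2 e.symm⟩
      rw [Subgroup.mul_mem_cancel_left _ (Subgroup.inv_mem _ hv)] at h11
      obtain ⟨z, hz, e⟩ := h11
      exact Subtype.ext e ▸ hz

theorem isCoatom_stab_conj {G β : Type*} [Group G] [MulAction G β] {K : Subgroup G} {a : β}
    (h : IsCoatom ((stabilizer G a).subgroupOf K)) {g : G} (hg : g ∈ K) :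
    IsCoatom ((stabilizer G (g • a)).subgroupOf K) := by
  convert Subgroup.isCoatom_comap_of_surjective
    (φ := (MulAut.conj (⟨g, hg⟩ : K)⁻¹).toMonoidHom) (MulEquiv.surjective _) h using 1
  ext x
  simp [Subgroup.mem_subgroupOf, mul_smul, inv_smul_eq_iff]

/-- extremely primitive actions -/
theorem extremely_primitive {G : Type*} [Group G] {K : Subgroup (Equiv.Perm α)} (e : G ≃* K) {a : α}
    (h1 : IsCoatom ((stabilizer (Equiv.Perm α) a).subgroupOf K))
    (h2 : ∀ g ∈ K, g a ≠ a → IsCoatom ((stabilizer (Equiv.Perm α) (g a)).subgroupOf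
      (K ⊓ stabilizer (Equiv.Perm α) a))) :
    ∃ H : Subgroup G, IsCoatom H ∧ Nonempty (H ≃* ↥(K ⊓ stabilizer (Equiv.Perm α) a)) ∧
      ∀ x : G, x ∉ H → IsCoatom ((H ⊓ H.map (MulAut.conj x).toMonoidHom).subgroupOf H) := by
  let H := ((stabilizer (Equiv.Perm α) a).subgroupOf K).comap e.toMonoidHom
  let f : H ≃* ↥(K ⊓ stabilizer (Equiv.Perm α) a) :=
    { toFun := fun x => ⟨e x, (e x).2, x.2⟩
      invFun := fun y => ⟨e.symm ⟨y, y.2.1⟩, by simpa [H, Subgroup.mem_subgroupOf] using y.2.2⟩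
      left_inv := fun x => by simp
      right_inv := fun y => by simp
      map_mul' := fun x y => Subtype.ext (by simp) }
  refine ⟨H, Subgroup.isCoatom_comap_of_surjective e.surjective h1, ⟨f⟩, fun x hx => ?_⟩
  convert Subgroup.isCoatom_comap_of_surjective (φ := f.toMonoidHom) f.surjective
    (h2 (e x) (e x).2 hx) using 1
  ext y
  rw [Subgroup.inf_subgroupOf_left, Subgroup.mem_subgroupOf, Subgroup.mem_map_equiv]
  refine Iff.trans ?_ (Iff.rfl : (e y).1 ((e x).1 a) = (e x).1 a ↔ _)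
  simp [H, Subgroup.mem_subgroupOf, Equiv.symm_apply_eq]

end Cfsg.Agent.H56
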