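/-
Matrix representations of permutation groups with a chain, certified on the union of the points and a spanning orbit
of vectors.
-/
import Cfsg.Agent.H56.RepTools

set_option autoImplicit false

namespace Cfsg.Agent.H56

open H14

/-- the cheap part of the certificate -/
noncomputable def repOK (t : FT) (d VT n k₁ M₁ m k₂ M₂ N k : ℕ) (LK : List Lev) (gs : List (ℕ × ℕ))
    (bs cs : List ℕ) (cert : List LevCert) : Bool :=
  basisOK t d n VT && allL gs (actOK t d n k₁ M₁ VT false) && memOK k₂ M₂ m LK bs &&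
    zipOK n k₁ M₁ k₂ M₂ N k (gs.map Prod.snd) bs cs && allL cert (fun c => Nat.ble n c.L.b) &&
    Nat.beq (chainCard N (cert.map LevCert.L)) (chainCard m LK)

theorem exists_rep_of_cert {t : FT} [t.OK] {F : Type*} [Field F] (ι : TF t →+* F) {κ : Type*}
    {d : ℕ} (e : κ ≃ Fin d) [Fintype κ] [DecidableEq κ] {α β : Type*} {n m k₁ M₁ k₂ M₂ : ℕ}
    (E : Enc α n k₁ M₁) {E' : Enc β m k₂ M₂} {K : Subgroup (Equiv.Perm β)} {LK : List Lev}
    (hK : E'.IsChain LK K) (N k M : ℕ) (hN : n + m = N) (hM : M = 2 ^ k) (hle : N ≤ M) {VT : ℕ}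
    {gs : List (ℕ × ℕ)} {bs cs : List ℕ} {cert : List LevCert}
    (h : repOK t d VT n k₁ M₁ m k₂ M₂ N k LK gs bs cs cert = true)
    (hss : ssOK k M N cert cs = true) :
    ∃ ρ : K →* GL κ F, ∀ (i : ℕ) (g : K) (p : ℕ × ℕ), gs[i]? = some p → bs[i]? = some (E'.pk g) →
      (ρ g : Matrix κ κ F) = matOf ι e p.1 := by
  simp only [repOK, Bool.and_eq_true, beq_iff] at h
  obtain ⟨⟨⟨⟨⟨h1, h2⟩, h3⟩, h4⟩, h5⟩, h6⟩ := h
  have hv : ∀ p ∈ gs, ∃ g, E.pk g = p.2 := fun p hp => by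
    have := allL_iff.1 h2 p hp
    simp only [actOK, force_eq, Bool.and_eq_true] at this
    exact E.exists_pk_of_valid this.1
  obtain ⟨φ, h7, h8⟩ := exists_hom_of_cert (E := E) (F := E') hN hM hle K.subtype K.subtype_injective
    (fun P hP => by obtain ⟨p, hp, rfl⟩ := List.mem_map.1 hP; exact hv p hp)
    (fun P hP => let ⟨g, hg, e⟩ := inG_of_memOK hK h3 P hP; ⟨⟨g, hg⟩, e⟩) h4 hss h5
    (hK.card.trans h6.symm).le
  obtain ⟨ρ, hρ⟩ := exists_rep ι e E h1 h2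
  refine ⟨ρ.comp (φ.codRestrict _ fun g => h7 ▸ ⟨g, rfl⟩), fun i g p hp hg => ?_⟩
  obtain ⟨a, ha⟩ := hv p (List.mem_of_getElem? hp)
  refine hρ _ p (allL_iff.1 h2 p (List.mem_of_getElem? hp)) ?_
  rw [← ha]
  exact congrArg E.pk (h8 i g a (by rw [List.getElem?_map, hp, ha]; rfl) hg)

end Cfsg.Agent.H56
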